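import Mathlib
import Cfsg.Agent.LargeExtra.W2.Coord
import Cfsg.Agent.LargeExtra.TwoCentral
import Cfsg.Agent.LargeExtra.W2.Cases
import Cfsg.Agent.LargeExtra.W2.Kill94
import Cfsg.Agent.LargeExtra.W2.U43.Fusion
import Cfsg.Agent.LargeExtra.W2.U43.CertAll_m3
import Cfsg.Agent.OddOrderLocal.PLengthOne
import Cfsg.Agent.S1313
import Cfsg.Agent.Lib.MatDec
import Cfsg.Agent.FastGrp
import Cfsg.Agent.Prune
set_option linter.all false
prune_inst 0x7f00000000000000000000000000000000000000000000000000000000000000000000000000000000000000000000000000000000000000000000000000000000000000000000000000000000000000003fffffffffffffffffffffffffffbeffbdffffffff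
open scoped Cfsg.Agent.FastGrp

-- part: H870/STwoThree
section
/-!
# SL(2,3): facts checked by the kernel
-/

set_option autoImplicit false

namespace Cfsg.Agent.H870.STwoThree

/-- SL(2,3) -/
abbrev S23 := Matrix.SpecialLinearGroup (Fin 2) (ZMod 3)

/-- an element of order 4 -/
def mI : S23 := ⟨!![0, 1; -1, 0], by decide⟩
/-- an element of order 4 -/
def mJ : S23 := ⟨!![1, 1; 1, -1], by decide⟩
/-- the central involution -/
def mZ : S23 := ⟨!![-1, 0; 0, -1], by decide⟩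

theorem II : mI * mI = mZ := by decide +kernel
theorem JJ : mJ * mJ = mZ := by decide +kernel
theorem JI : mJ * mI = mI * mJ * mZ := by decide +kernel
theorem ZZ : mZ * mZ = 1 := by decide +kernel
theorem Z_ne : mZ ≠ 1 := by decide +kernel
theorem I4 : mI ^ 4 = 1 := by decide +kernel
theorem J4 : mJ ^ 4 = 1 := by decide +kernel
theorem Z4 : mZ ^ 4 = 1 := by decide +kernel

theorem Z_comm : ∀ M : S23, mZ * M = M * mZ := by open scoped Cfsg.Agent.Lib.MatDec in decide +kernel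
theorem sq_one : ∀ M : S23, M * M = 1 → M = 1 ∨ M = mZ := by open scoped Cfsg.Agent.Lib.MatDec in decide +kernel
theorem four_sq : ∀ M : S23, M ^ 4 = 1 → M * M = 1 ∨ M * M = mZ := by open scoped Cfsg.Agent.Lib.MatDec in decide +kernel
theorem four_mul : ∀ M N : S23, M ^ 4 = 1 → N ^ 4 = 1 → (M * N) ^ 4 = 1 := by open scoped Cfsg.Agent.Lib.MatDec in decide +kernel
theorem four_comm : ∀ M N : S23, M ^ 4 = 1 → N ^ 4 = 1 → M * N = N * M ∨ M * N = N * M * mZ := by
  open scoped Cfsg.Agent.Lib.MatDec in decide +kernel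
theorem four_cent : ∀ M : S23, M ^ 4 = 1 → M * mI = mI * M → M * mJ = mJ * M → M = 1 ∨ M = mZ := by
  open scoped Cfsg.Agent.Lib.MatDec in decide +kernel
theorem four_three : ∀ M : S23, ∃ N : S23, N ^ 3 = 1 ∧ (M * N) ^ 4 = 1 := by open scoped Cfsg.Agent.Lib.MatDec in decide +kernel
theorem three_three : ∀ M : S23, M = mZ ∨ ∃ A B : S23, A ^ 3 = 1 ∧ B ^ 3 = 1 ∧ M = A * B := by open scoped Cfsg.Agent.Lib.MatDec in decide +kernel
theorem conj_I : ∀ M : S23, M * M = mZ → ∃ g : S23, g * M * g⁻¹ = mI := by open scoped Cfsg.Agent.Lib.MatDec in decide +kernel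
theorem four_rep : ∀ M : S23, M ^ 4 = 1 → ∃ a b c : Bool, M =
    (if a then mI else 1) * (if b then mJ else 1) * (if c then mZ else 1) := by open scoped Cfsg.Agent.Lib.MatDec in decide +kernel
theorem card_four : Fintype.card {M : S23 // M ^ 4 = 1} = 8 := by decide +kernel
theorem card_sq : Fintype.card {M : S23 // M * M = mZ} = 6 := by decide +kernel
end Cfsg.Agent.H870.STwoThree
end

-- part: H870/U4Two
section
/-!
# Two commuting copies of SL(2,3) with the same central involution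

`Two z φ₁ φ₂` : `φ₁`, `φ₂ : SL(2,3) → G` are injective with commuting images that meet in `⟨z⟩`.
`QQ` : the product of the two quaternion subgroups (order 32).
-/

set_option autoImplicit false

namespace Cfsg.Agent.H870.U4Two

open Cfsg.Agent.H870.STwoThree Cfsg.Agent.Co2Type.Quad Cfsg.Agent.LargeExtra.W2

variable {G : Type*} [Group G]

/-- Two commuting copies of SL(2,3). -/
structure Two (z : G) (φ₁ φ₂ : S23 →* G) : Prop where
  inj₁ : Function.Injective φ₁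
  inj₂ : Function.Injective φ₂
  z₁ : φ₁ mZ = z
  z₂ : φ₂ mZ = z
  comm : ∀ M N, φ₁ M * φ₂ N = φ₂ N * φ₁ M
  meet : ∀ M N, φ₁ M = φ₂ N → M = 1 ∨ M = mZ

variable {z : G} {φ₁ φ₂ : S23 →* G}

theorem Two.mul (_h : Two z φ₁ φ₂) (M N M' N' : S23) :
    (φ₁ M * φ₂ N) * (φ₁ M' * φ₂ N') = φ₁ (M * M') * φ₂ (N * N') := by
  rw [map_mul, map_mul]
  calc (φ₁ M * φ₂ N) * (φ₁ M' * φ₂ N') = φ₁ M * (φ₂ N * φ₁ M') * φ₂ N' := by group
    _ = φ₁ M * (φ₁ M' * φ₂ N) * φ₂ N' := by rw [_h.comm]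
    _ = _ := by group

theorem Two.inv (h : Two z φ₁ φ₂) (M N : S23) : (φ₁ M * φ₂ N)⁻¹ = φ₁ M⁻¹ * φ₂ N⁻¹ := by
  rw [mul_inv_rev, map_inv, map_inv, ← map_inv, ← map_inv, h.comm]

theorem Two.eq (h : Two z φ₁ φ₂) {M N M' N' : S23} (he : φ₁ M * φ₂ N = φ₁ M' * φ₂ N') :
    (M = M' ∧ N = N') ∨ (M = M' * mZ ∧ N = N' * mZ) := by
  have h1 : φ₁ (M'⁻¹ * M) = φ₂ (N' * N⁻¹) := by
    rw [map_mul, map_mul, map_inv, map_inv]
    calc (φ₁ M')⁻¹ * φ₁ M = (φ₁ M')⁻¹ * (φ₁ M * φ₂ N) * (φ₂ N)⁻¹ := by group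
      _ = _ := by rw [he]; group
  rcases h.meet _ _ h1 with h2 | h2
  · left
    rw [h2, map_one] at h1
    have h3 : N' * N⁻¹ = 1 := h.inj₂ (by rw [← h1, map_one])
    exact ⟨(inv_mul_eq_one.1 h2).symm, (mul_inv_eq_one.1 h3).symm⟩
  · right
    rw [h2, h.z₁, ← h.z₂] at h1
    have h3 : N' * N⁻¹ = mZ := (h.inj₂ h1).symm
    have h4 : M = M' * mZ := by rw [← h2]; group
    refine ⟨h4, ?_⟩
    have h5 : N' = mZ * N := by rw [← h3]; group
    rw [h5, mul_assoc, ← Z_comm N, ← mul_assoc, ZZ, one_mul]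

/-- the product of the two quaternion groups -/
def QQ (h : Two z φ₁ φ₂) : Subgroup G where
  carrier := {x | ∃ M N : S23, M ^ 4 = 1 ∧ N ^ 4 = 1 ∧ x = φ₁ M * φ₂ N}
  mul_mem' := by
    rintro _ _ ⟨M, N, h1, h2, rfl⟩ ⟨M', N', h3, h4, rfl⟩
    exact ⟨_, _, four_mul _ _ h1 h3, four_mul _ _ h2 h4, h.mul _ _ _ _⟩
  one_mem' := ⟨1, 1, one_pow _, one_pow _, by rw [map_one, map_one, mul_one]⟩
  inv_mem' := by
    rintro _ ⟨M, N, h1, h2, rfl⟩
    exact ⟨_, _, by rw [inv_pow, h1, inv_one], by rw [inv_pow, h2, inv_one], h.inv _ _⟩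

/-- representatives of the quaternion group modulo its centre -/
def rep : Fin 4 → S23 := ![1, mI, mJ, mI * mJ]

theorem rep_four : ∀ a, rep a ^ 4 = 1 := by decide +kernel
theorem rep_inj : ∀ a b, rep a = rep b ∨ rep a = rep b * mZ → a = b := by decide +kernel
theorem rep_surj : ∀ M : S23, M ^ 4 = 1 → ∃ a, M = rep a ∨ M = rep a * mZ := by open scoped Cfsg.Agent.Lib.MatDec in decide +kernel

theorem Two.shift (h : Two z φ₁ φ₂) (M N : S23) : φ₁ (M * mZ) * φ₂ N = φ₁ M * φ₂ (mZ * N) := by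
  rw [map_mul, map_mul, h.z₁, h.z₂, mul_assoc]

theorem card_QQ (h : Two z φ₁ φ₂) : Nat.card (QQ h) = 32 := by
  let f : Fin 4 × {M : S23 // M ^ 4 = 1} → QQ h := fun p =>
    ⟨φ₁ (rep p.1) * φ₂ p.2.1, rep p.1, p.2.1, rep_four _, p.2.2, rfl⟩
  have hf : Function.Bijective f := by
    constructor
    · rintro ⟨a, M, hM⟩ ⟨b, N, hN⟩ hab
      have h1 : φ₁ (rep a) * φ₂ M = φ₁ (rep b) * φ₂ N := congrArg Subtype.val hab
      rcases h.eq h1 with ⟨h2, h3⟩ | ⟨h2, h3⟩
      · have := rep_inj a b (Or.inl h2)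
        subst this
        subst h3
        rfl
      · have := rep_inj a b (Or.inr h2)
        subst this
        exfalso
        apply Z_ne
        exact mul_eq_left.1 h2.symm
    · rintro ⟨_, M, N, hM, hN, rfl⟩
      obtain ⟨a, rfl | rfl⟩ := rep_surj M hM
      · exact ⟨(a, ⟨N, hN⟩), rfl⟩
      · refine ⟨(a, ⟨mZ * N, four_mul _ _ Z4 hN⟩), ?_⟩
        apply Subtype.ext
        exact (h.shift _ _).symm
  rw [← Nat.card_eq_of_bijective f hf, Nat.card_prod, Nat.card_eq_fintype_card,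
    Nat.card_eq_fintype_card, Fintype.card_fin, card_four]

theorem QQ_gen (h : Two z φ₁ φ₂) : QQ h = Subgroup.closure {φ₁ mI, φ₁ mJ, φ₂ mI, φ₂ mJ} := by
  apply le_antisymm
  · rintro _ ⟨M, N, hM, hN, rfl⟩
    have key : ∀ φ : S23 →* G, φ mI ∈ Subgroup.closure {φ₁ mI, φ₁ mJ, φ₂ mI, φ₂ mJ} →
        φ mJ ∈ Subgroup.closure {φ₁ mI, φ₁ mJ, φ₂ mI, φ₂ mJ} →
        φ mZ ∈ Subgroup.closure {φ₁ mI, φ₁ mJ, φ₂ mI, φ₂ mJ} →
        ∀ M : S23, M ^ 4 = 1 → φ M ∈ Subgroup.closure {φ₁ mI, φ₁ mJ, φ₂ mI, φ₂ mJ} := by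
      intro φ h1 h2 h3 M hM
      obtain ⟨a, b, c, rfl⟩ := four_rep M hM
      rw [map_mul, map_mul]
      refine mul_mem (mul_mem ?_ ?_) ?_ <;> split_ifs <;>
        first | assumption | (rw [map_one]; exact one_mem _)
    have m1 : φ₁ mI ∈ Subgroup.closure ({φ₁ mI, φ₁ mJ, φ₂ mI, φ₂ mJ} : Set G) :=
      Subgroup.subset_closure (by simp)
    have m2 : φ₁ mJ ∈ Subgroup.closure ({φ₁ mI, φ₁ mJ, φ₂ mI, φ₂ mJ} : Set G) :=
      Subgroup.subset_closure (by simp)
    have m3 : φ₂ mI ∈ Subgroup.closure ({φ₁ mI, φ₁ mJ, φ₂ mI, φ₂ mJ} : Set G) :=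
      Subgroup.subset_closure (by simp)
    have m4 : φ₂ mJ ∈ Subgroup.closure ({φ₁ mI, φ₁ mJ, φ₂ mI, φ₂ mJ} : Set G) :=
      Subgroup.subset_closure (by simp)
    refine mul_mem (key φ₁ m1 m2 ?_ M hM) (key φ₂ m3 m4 ?_ N hN)
    · rw [← II, map_mul]; exact mul_mem m1 m1
    · rw [← II, map_mul]; exact mul_mem m3 m3
  · rw [Subgroup.closure_le]
    rintro _ (rfl | rfl | rfl | rfl)
    · exact ⟨mI, 1, I4, one_pow _, by rw [map_one, mul_one]⟩
    · exact ⟨mJ, 1, J4, one_pow _, by rw [map_one, mul_one]⟩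
    · exact ⟨1, mI, one_pow _, I4, by rw [map_one, one_mul]⟩
    · exact ⟨1, mJ, one_pow _, J4, by rw [map_one, one_mul]⟩

theorem Two.z_ne (h : Two z φ₁ φ₂) : z ≠ 1 := by
  rw [← h.z₁]
  intro h1
  exact Z_ne (h.inj₁ (by rw [h1, map_one]))

theorem Two.zz (h : Two z φ₁ φ₂) : z * z = 1 := by
  rw [← h.z₁, ← map_mul, ZZ, map_one]

theorem Two.z_comm (h : Two z φ₁ φ₂) (M N : S23) : φ₁ M * φ₂ N * z = z * (φ₁ M * φ₂ N) := by
  have e1 : φ₂ N * z = z * φ₂ N := by rw [← h.z₂, ← map_mul, ← map_mul, Z_comm]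
  have e2 : φ₁ M * z = z * φ₁ M := by rw [← h.z₁, ← map_mul, ← map_mul, Z_comm]
  rw [mul_assoc, e1, ← mul_assoc, e2, mul_assoc]

/-- squares -/
theorem Two.sq (h : Two z φ₁ φ₂) {x : G} (hx : x ∈ QQ h) : x * x = 1 ∨ x * x = z := by
  obtain ⟨M, N, hM, hN, rfl⟩ := hx
  rw [h.mul]
  rcases four_sq M hM with h1 | h1 <;> rcases four_sq N hN with h2 | h2 <;> rw [h1, h2]
  · left; rw [map_one, map_one, mul_one]
  · right; rw [map_one, one_mul, h.z₂]
  · right; rw [map_one, mul_one, h.z₁]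
  · left; rw [h.z₁, h.z₂, h.zz]

theorem Two.comm' (h : Two z φ₁ φ₂) {x y : G} (hx : x ∈ QQ h) (hy : y ∈ QQ h) :
    x * y = y * x ∨ x * y = y * x * z := by
  obtain ⟨M, N, hM, hN, rfl⟩ := hx
  obtain ⟨M', N', hM', hN', rfl⟩ := hy
  rw [h.mul, h.mul]
  rcases four_comm M M' hM hM' with h1 | h1 <;> rcases four_comm N N' hN hN' with h2 | h2 <;>
    rw [h1, h2]
  · left; rfl
  · right; rw [map_mul φ₂ _ mZ, h.z₂, mul_assoc]
  · right
    rw [map_mul φ₁ _ mZ, h.z₁]
    have e : z * φ₂ (N' * N) = φ₂ (N' * N) * z := by rw [← h.z₂, ← map_mul, ← map_mul, Z_comm]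
    rw [mul_assoc, e, mul_assoc]
  · left
    rw [map_mul φ₁ _ mZ, h.z₁, map_mul φ₂ _ mZ, h.z₂]
    have e : z * φ₂ (N' * N) = φ₂ (N' * N) * z := by rw [← h.z₂, ← map_mul, ← map_mul, Z_comm]
    calc φ₁ (M' * M) * z * (φ₂ (N' * N) * z) = φ₁ (M' * M) * (z * φ₂ (N' * N)) * z := by group
      _ = φ₁ (M' * M) * φ₂ (N' * N) * (z * z) := by rw [e]; group
      _ = _ := by rw [h.zz, mul_one]

theorem Two.cent (h : Two z φ₁ φ₂) {x : G} (hx : x ∈ QQ h) (hc : ∀ y ∈ QQ h, x * y = y * x) :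
    x = 1 ∨ x = z := by
  obtain ⟨M, N, hM, hN, rfl⟩ := hx
  have c1 : ∀ P : S23, P ^ 4 = 1 → M * P = P * M := by
    intro P hP
    have h1 := hc _ ⟨P, 1, hP, one_pow _, rfl⟩
    rw [h.mul, h.mul] at h1
    rcases h.eq h1 with ⟨h2, h3⟩ | ⟨h2, h3⟩
    · exact h2
    · exfalso
      rw [mul_one, one_mul] at h3
      exact Z_ne (mul_eq_left.1 h3.symm)
  have c2 : ∀ P : S23, P ^ 4 = 1 → N * P = P * N := by
    intro P hP
    have h1 := hc _ ⟨1, P, one_pow _, hP, rfl⟩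
    rw [h.mul, h.mul] at h1
    rcases h.eq h1 with ⟨h2, h3⟩ | ⟨h2, h3⟩
    · exact h3
    · exfalso
      rw [mul_one, one_mul] at h2
      exact Z_ne (mul_eq_left.1 h2.symm)
  rcases four_cent M hM (c1 _ I4) (c1 _ J4) with rfl | rfl <;>
    rcases four_cent N hN (c2 _ I4) (c2 _ J4) with rfl | rfl
  · left; rw [map_one, map_one, mul_one]
  · right; rw [map_one, one_mul, h.z₂]
  · right; rw [map_one, mul_one, h.z₁]
  · left; rw [h.z₁, h.z₂, h.zz]

theorem Two.z_mem (h : Two z φ₁ φ₂) : z ∈ QQ h :=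
  ⟨mZ, 1, Z4, one_pow _, by rw [map_one, mul_one, h.z₁]⟩

theorem Two.large (h : Two z φ₁ φ₂) (hn : ∀ g, g * z = z * g → ∀ x ∈ QQ h, g * x * g⁻¹ ∈ QQ h)
    (hs : ∀ g, g * z = z * g → (∀ x ∈ QQ h, g * x = x * g) → g ∈ QQ h) : Large (QQ h) z where
  z_mem := h.z_mem
  z_ne := h.z_ne
  z_sq := h.zz
  comm_z := by
    rintro _ ⟨M, N, -, -, rfl⟩
    exact h.z_comm M N
  conj_mem := hn
  sq := fun _ hx => h.sq hx
  comm := fun _ hx _ hy => h.comm' hx hy
  cent := fun _ hx hc => h.cent hx hc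
  self := hs

theorem Two.plus (h : Two z φ₁ φ₂) (hl : Large (QQ h) z) :
    Plus (QQ h) z (φ₁ mI) (φ₁ mJ) (φ₂ mI) (φ₂ mJ) where
  large := hl
  card := card_QQ h
  gen := QQ_gen h
  ii := by rw [← map_mul, II, h.z₁]
  jj := by rw [← map_mul, JJ, h.z₁]
  kk := by rw [← map_mul, II, h.z₂]
  ll := by rw [← map_mul, JJ, h.z₂]
  ji := by rw [← map_mul, JI, map_mul, h.z₁, map_mul]
  lk := by rw [← map_mul, JI, map_mul, h.z₂, map_mul]
  ki := (h.comm _ _).symm
  li := (h.comm _ _).symm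
  kj := (h.comm _ _).symm
  lj := (h.comm _ _).symm

/-- the non-central involutions of `QQ` are conjugate under the two copies -/
theorem Two.conj_inv (h : Two z φ₁ φ₂) {x : G} (hx : x ∈ QQ h) (hxx : x * x = 1) (h1 : x ≠ 1)
    (hz : x ≠ z) : ∃ M N, (φ₁ M * φ₂ N) * x * (φ₁ M * φ₂ N)⁻¹ = φ₁ mI * φ₂ mI := by
  obtain ⟨M, N, hM, hN, rfl⟩ := hx
  have h2 : M * M = mZ ∧ N * N = mZ := by
    rw [h.mul] at hxx
    rcases four_sq M hM with e1 | e1 <;> rcases four_sq N hN with e2 | e2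
    · exfalso
      rcases sq_one M e1 with rfl | rfl <;> rcases sq_one N e2 with rfl | rfl
      · exact h1 (by rw [map_one, map_one, mul_one])
      · exact hz (by rw [map_one, one_mul, h.z₂])
      · exact hz (by rw [map_one, mul_one, h.z₁])
      · exact h1 (by rw [h.z₁, h.z₂, h.zz])
    · exfalso
      rw [e1, e2, map_one, one_mul, h.z₂] at hxx
      exact h.z_ne hxx
    · exfalso
      rw [e1, e2, map_one, mul_one, h.z₁] at hxx
      exact h.z_ne hxx
    · exact ⟨e1, e2⟩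
  obtain ⟨g, hg⟩ := conj_I M h2.1
  obtain ⟨g', hg'⟩ := conj_I N h2.2
  exact ⟨g, g', by rw [h.inv, h.mul, h.mul, hg, hg']⟩

/-- there are at least 18 non-central involutions in `QQ` -/
theorem Two.card_inv [Finite G] (h : Two z φ₁ φ₂) :
    18 ≤ Nat.card {x : G // x ∈ QQ h ∧ x * x = 1 ∧ x ≠ 1 ∧ x ≠ z} := by
  let f : Fin 3 × {M : S23 // M * M = mZ} → {x : G // x ∈ QQ h ∧ x * x = 1 ∧ x ≠ 1 ∧ x ≠ z} := fun p =>
    ⟨φ₁ (rep p.1.succ) * φ₂ p.2.1, by
      have hr : rep p.1.succ * rep p.1.succ = mZ := by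
        have : ∀ a : Fin 3, rep a.succ * rep a.succ = mZ := by decide +kernel
        exact this _
      have hp : p.2.1 ^ 4 = 1 := by
        have : p.2.1 ^ 4 = (p.2.1 * p.2.1) * (p.2.1 * p.2.1) := by
          rw [show (4 : ℕ) = 2 + 2 from rfl, pow_add, pow_two]
        rw [this, p.2.2, ZZ]
      refine ⟨⟨_, _, rep_four _, hp, rfl⟩, ?_, ?_, ?_⟩
      · rw [h.mul, hr, p.2.2, h.z₁, h.z₂, h.zz]
      · intro h1
        have h2 : φ₁ (rep p.1.succ) * φ₂ p.2.1 = φ₁ 1 * φ₂ 1 := by rw [h1, map_one, map_one, mul_one]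
        rcases h.eq h2 with ⟨h3, -⟩ | ⟨h3, -⟩
        · rw [h3, one_mul] at hr
          exact Z_ne hr.symm
        · rw [h3, one_mul, ZZ] at hr
          exact Z_ne hr.symm
      · intro h1
        have h2 : φ₁ (rep p.1.succ) * φ₂ p.2.1 = φ₁ mZ * φ₂ 1 := by rw [h1, map_one, h.z₁, mul_one]
        rcases h.eq h2 with ⟨h3, -⟩ | ⟨h3, -⟩
        · rw [h3, ZZ] at hr
          exact Z_ne hr.symm
        · rw [h3, ZZ, one_mul] at hr
          exact Z_ne hr.symm⟩
  have hf : Function.Injective f := by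
    rintro ⟨a, M, hM⟩ ⟨b, N, hN⟩ hab
    have h1 : φ₁ (rep a.succ) * φ₂ M = φ₁ (rep b.succ) * φ₂ N := congrArg Subtype.val hab
    rcases h.eq h1 with ⟨h2, h3⟩ | ⟨h2, h3⟩
    · have := Fin.succ_injective _ (rep_inj _ _ (Or.inl h2))
      subst this
      subst h3
      rfl
    · have := Fin.succ_injective _ (rep_inj _ _ (Or.inr h2))
      subst this
      exfalso
      apply Z_ne
      exact mul_eq_left.1 h2.symm
  have := Nat.card_le_card_of_injective f hf
  rwa [Nat.card_prod, Nat.card_eq_fintype_card, Nat.card_eq_fintype_card, Fintype.card_fin,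
    card_sq] at this

end Cfsg.Agent.H870.U4Two
end

-- part: H870/U4Index
section
/-!
# No subgroup of index two, no normal subgroup of odd order

The situation of `U₄(3)`: `Two z φ₁ φ₂`, `Q = QQ`, `|C_G(z)| = 2^7 · 3^2`, `z^g ∈ Q`, `|Q ∩ Q^g| = 4`.
-/

set_option autoImplicit false

namespace Cfsg.Agent.H870.U4Index

open Cfsg.Agent.H870.STwoThree Cfsg.Agent.Co2Type.Quad Cfsg.Agent.LargeExtra.W2
  Cfsg.Agent.H870.U4Two Cfsg.Agent.LargeExtra.Base

variable {G : Type*} [Group G] [Finite G]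

theorem relIndex_mul_card (H K : Subgroup G) (h : H ≤ K) :
    H.relIndex K * Nat.card H = Nat.card K := by
  have := Subgroup.relIndex_mul_relIndex ⊥ H K bot_le h
  rw [Subgroup.relIndex_bot_left, Subgroup.relIndex_bot_left] at this
  rw [mul_comm]
  exact this

/-- the centraliser of a non-central element of a large extraspecial group has index two -/
theorem card_cent_inf {Q : Subgroup G} {z : G} (h : Large Q z) {a : G} (ha : a ∈ Q) (h1 : a ≠ 1)
    (hz : a ≠ z) : 2 * Nat.card ↥(Subgroup.centralizer ({a} : Set G) ⊓ Q) = Nat.card Q := by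
  have h2 : (Subgroup.centralizer ({a} : Set G)).relIndex Q = 2 := by
    rw [Subgroup.relIndex_eq_two_iff_exists_notMem_and]
    obtain ⟨y, hy, hya⟩ := exists_not_comm h ha h1 hz
    have hne : a * y ≠ y * a := by
      intro he
      rw [he] at hya
      exact h.z_ne (mul_eq_left.1 hya.symm)
    refine ⟨y, hy, ?_, ?_⟩
    · rw [Subgroup.mem_centralizer_singleton_iff]
      exact fun he => hne he.symm
    · intro b hb
      by_cases hba : b * a = a * b
      · right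
        rw [Subgroup.mem_centralizer_singleton_iff]
        exact hba
      · left
        rw [Subgroup.mem_centralizer_singleton_iff]
        have h3 : b * a = a * b * z := by
          rcases h.comm b hb a ha with h4 | h4
          · exact absurd h4 hba
          · exact h4
        have h5 : b * z = z * b := h.comm_z b hb
        calc b * y * a = b * (y * a) := by group
          _ = b * (a * y * z) := by rw [hya]
          _ = (b * a) * y * z := by group
          _ = a * b * z * y * z := by rw [h3]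
          _ = a * b * (z * y) * z := by group
          _ = a * b * (y * z) * z := by rw [h.comm_z y hy]
          _ = a * (b * y) * (z * z) := by group
          _ = a * (b * y) := by rw [h.z_sq, mul_one]
  rw [← Subgroup.inf_relIndex_right] at h2
  have h3 := relIndex_mul_card (Subgroup.centralizer ({a} : Set G) ⊓ Q) Q inf_le_right
  rw [h2] at h3
  exact h3

variable {z : G} {φ₁ φ₂ : S23 →* G}

theorem mem_of_odd {N : Subgroup G} (hN : N.index = 2) {x : G} (hx : x ^ 3 = 1) : x ∈ N := by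
  have h2 : x * x ∈ N := Subgroup.mul_self_mem_of_index_two hN x
  have h4 : x = (x * x) * (x * x) := by
    calc x = x ^ 3 * x := by rw [hx, one_mul]
      _ = (x * x) * (x * x) := by rw [pow_succ, pow_two]; group
  rw [h4]
  exact mul_mem h2 h2

theorem phi_mem {N : Subgroup G} (hN : N.index = 2) (φ : S23 →* G) (M : S23) : φ M ∈ N := by
  have key : ∀ A B : S23, A ^ 3 = 1 → B ^ 3 = 1 → φ (A * B) ∈ N := by
    intro A B hA hB
    rw [map_mul]
    exact mul_mem (mem_of_odd hN (by rw [← map_pow, hA, map_one]))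
      (mem_of_odd hN (by rw [← map_pow, hB, map_one]))
  have hI : φ mI ∈ N := by
    rcases three_three mI with h | ⟨A, B, hA, hB, h⟩
    · exact absurd h (by decide +kernel)
    · rw [h]; exact key A B hA hB
  rcases three_three M with h | ⟨A, B, hA, hB, h⟩
  · rw [h, ← II, map_mul]
    exact mul_mem hI hI
  · rw [h]; exact key A B hA hB

/-- `|C_G(z) ∩ C_G(a)| ≤ 64` -/
theorem card_two_cent (h : Two z φ₁ φ₂)
    (hC : Nat.card (Subgroup.centralizer ({z} : Set G)) = 1152) {a : G} (ha : a ∈ QQ h)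
    (haa : a * a = 1) (h1 : a ≠ 1) (hz : a ≠ z) :
    Nat.card ↥(Subgroup.centralizer ({z} : Set G) ⊓ Subgroup.centralizer ({a} : Set G)) ≤ 64 := by
  obtain ⟨M₀, N₀, h0⟩ := h.conj_inv ha haa h1 hz
  have hcz : ∀ M N, φ₁ M * φ₂ N ∈ Subgroup.centralizer ({z} : Set G) := by
    intro M N
    rw [Subgroup.mem_centralizer_singleton_iff]
    exact h.z_comm M N
  have key : ∀ x : {x : G // x ∈ QQ h ∧ x * x = 1 ∧ x ≠ 1 ∧ x ≠ z},
      ∃ c ∈ Subgroup.centralizer ({z} : Set G), c * a * c⁻¹ = x := by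
    rintro ⟨x, hx, hxx, hx1, hxz⟩
    obtain ⟨M, N, h2⟩ := h.conj_inv hx hxx hx1 hxz
    refine ⟨(φ₁ M * φ₂ N)⁻¹ * (φ₁ M₀ * φ₂ N₀), mul_mem (inv_mem (hcz _ _)) (hcz _ _), ?_⟩
    calc (φ₁ M * φ₂ N)⁻¹ * (φ₁ M₀ * φ₂ N₀) * a * ((φ₁ M * φ₂ N)⁻¹ * (φ₁ M₀ * φ₂ N₀))⁻¹
        = (φ₁ M * φ₂ N)⁻¹ * ((φ₁ M₀ * φ₂ N₀) * a * (φ₁ M₀ * φ₂ N₀)⁻¹) * (φ₁ M * φ₂ N) := by group
      _ = (φ₁ M * φ₂ N)⁻¹ * ((φ₁ M * φ₂ N) * x * (φ₁ M * φ₂ N)⁻¹) * (φ₁ M * φ₂ N) := by rw [h0, h2]
      _ = x := by group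
  choose c hc hca using key
  let f : {x : G // x ∈ QQ h ∧ x * x = 1 ∧ x ≠ 1 ∧ x ≠ z} ×
      ↥(Subgroup.centralizer ({z} : Set G) ⊓ Subgroup.centralizer ({a} : Set G)) →
      Subgroup.centralizer ({z} : Set G) := fun p => ⟨c p.1 * p.2, mul_mem (hc _) p.2.2.1⟩
  have hf : Function.Injective f := by
    rintro ⟨x, m⟩ ⟨y, n⟩ hxy
    have h2 : c x * m = c y * n := congrArg Subtype.val hxy
    have h3 : ∀ (x : {x : G // x ∈ QQ h ∧ x * x = 1 ∧ x ≠ 1 ∧ x ≠ z})
        (m : ↥(Subgroup.centralizer ({z} : Set G) ⊓ Subgroup.centralizer ({a} : Set G))),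
        (c x * m) * a * (c x * m)⁻¹ = x := by
      intro x m
      have h4 : (m : G) * a = a * m := Subgroup.mem_centralizer_singleton_iff.1 m.2.2
      calc (c x * m) * a * (c x * m)⁻¹ = c x * (m * a) * (m : G)⁻¹ * (c x)⁻¹ := by group
        _ = c x * a * (c x)⁻¹ := by rw [h4]; group
        _ = x := hca x
    have h5 : x = y := Subtype.ext (by rw [← h3 x m, ← h3 y n, h2])
    subst h5
    have h6 : m = n := Subtype.ext (mul_left_cancel h2)
    rw [h6]
  have h7 := Nat.card_le_card_of_injective f hf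
  rw [Nat.card_prod, hC] at h7
  have h8 := h.card_inv
  by_contra hcon
  push Not at hcon
  have : 18 * 65 ≤ 1152 := (Nat.mul_le_mul h8 hcon).trans h7
  omega

/-- no subgroup of index two -/
theorem no_index_two (h : Two z φ₁ φ₂) (hl : Large (QQ h) z)
    (hC : Nat.card (Subgroup.centralizer ({z} : Set G)) = 1152) {g : G} (hg : g * z * g⁻¹ ∈ QQ h)
    (hne : g * z * g⁻¹ ≠ z)
    (h4 : Nat.card ↥(QQ h ⊓ (QQ h).map (MulAut.conj g).toMonoidHom) = 4) (N : Subgroup G) :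
    N.index ≠ 2 := by
  intro hN
  have hNn : N.Normal := Subgroup.normal_of_index_eq_two hN
  have hQN : QQ h ≤ N := by
    rintro _ ⟨A, B, -, -, rfl⟩
    exact mul_mem (phi_mem hN φ₁ A) (phi_mem hN φ₂ B)
  have p := pair_of_conj hl hg hne
  have hAN : (QQ h).map (MulAut.conj g).toMonoidHom ≤ N := by
    rintro _ ⟨x, hx, rfl⟩
    exact hNn.conj_mem x (hQN hx) g
  have hcardA : Nat.card ((QQ h).map (MulAut.conj g).toMonoidHom) = 32 := by
    rw [Subgroup.card_map_of_injective (MulAut.conj g).injective, card_QQ h]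
  revert p h4 hAN hcardA hg hne
  generalize (QQ h).map (MulAut.conj g).toMonoidHom = A
  generalize g * z * g⁻¹ = a
  intro ha hne h4 p hAN hcardA
  have ha1 : a ≠ 1 := p.la.z_ne
  have haa : a * a = 1 := p.la.z_sq
  -- the two subgroups of order 16
  have c1 : Nat.card ↥(Subgroup.centralizer ({a} : Set G) ⊓ QQ h) = 16 := by
    have := card_cent_inf hl ha ha1 hne
    rw [card_QQ h] at this
    omega
  have c2 : Nat.card ↥(Subgroup.centralizer ({z} : Set G) ⊓ A) = 16 := by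
    have := card_cent_inf p.la p.z_mem hl.z_ne hne.symm
    rw [hcardA] at this
    omega
  set D := Subgroup.centralizer ({z} : Set G) ⊓ Subgroup.centralizer ({a} : Set G) with hD
  have hD64 : Nat.card D ≤ 64 := card_two_cent h hC ha haa ha1 hne
  have hQC : QQ h ≤ Subgroup.centralizer ({z} : Set G) := by
    intro x hx
    rw [Subgroup.mem_centralizer_singleton_iff]
    exact hl.comm_z x hx
  have hAC : A ≤ Subgroup.centralizer ({a} : Set G) := by
    intro x hx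
    rw [Subgroup.mem_centralizer_singleton_iff]
    exact p.la.comm_z x hx
  have l1 : Subgroup.centralizer ({a} : Set G) ⊓ QQ h ≤ D ⊓ N :=
    le_inf (le_inf (inf_le_right.trans hQC) inf_le_left) (inf_le_right.trans hQN)
  have l2 : Subgroup.centralizer ({z} : Set G) ⊓ A ≤ D ⊓ N :=
    le_inf (le_inf inf_le_left (inf_le_right.trans hAC)) (inf_le_right.trans hAN)
  have c3 : Nat.card ↥((Subgroup.centralizer ({a} : Set G) ⊓ QQ h) ⊓
      (Subgroup.centralizer ({z} : Set G) ⊓ A)) = 4 := by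
    rw [← h4]
    congr 2
    apply le_antisymm
    · exact inf_le_inf inf_le_right inf_le_right
    · intro x hx
      exact ⟨⟨hAC hx.2, hx.1⟩, ⟨hQC hx.1, hx.2⟩⟩
  have i1 : (Subgroup.centralizer ({a} : Set G) ⊓ QQ h).relIndex
      (Subgroup.centralizer ({z} : Set G) ⊓ A) = 4 := by
    have h5 := relIndex_mul_card ((Subgroup.centralizer ({a} : Set G) ⊓ QQ h) ⊓
      (Subgroup.centralizer ({z} : Set G) ⊓ A)) (Subgroup.centralizer ({z} : Set G) ⊓ A) inf_le_right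
    rw [Subgroup.inf_relIndex_right, c3, c2] at h5
    omega
  have i2 : 4 ≤ (Subgroup.centralizer ({a} : Set G) ⊓ QQ h).relIndex (D ⊓ N) := by
    rw [← i1]
    exact Subgroup.relIndex_le_of_le_right l2 (Subgroup.index_ne_zero_of_finite (H := Subgroup.subgroupOf _ (D ⊓ N)))
  have i3 := relIndex_mul_card (Subgroup.centralizer ({a} : Set G) ⊓ QQ h) (D ⊓ N) l1
  rw [c1] at i3
  have hDN : D ⊓ N = D := by
    apply Subgroup.eq_of_le_of_card_ge inf_le_left
    rw [← i3]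
    omega
  have hDN' : D ≤ N := by rw [← hDN]; exact inf_le_right
  -- `C ≤ N`
  have hCN : Subgroup.centralizer ({z} : Set G) ≤ N := by
    intro c hc
    have hcz := Subgroup.mem_centralizer_singleton_iff.1 hc
    have h5 : c * a * c⁻¹ ∈ QQ h := hl.conj_mem c hcz a ha
    have h6 : c * a * c⁻¹ * (c * a * c⁻¹) = 1 := by
      calc c * a * c⁻¹ * (c * a * c⁻¹) = c * (a * a) * c⁻¹ := by group
        _ = 1 := by rw [haa]; group
    have h7 : c * a * c⁻¹ ≠ 1 := by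
      intro h8
      rw [mul_inv_eq_one] at h8
      exact ha1 (mul_eq_left.1 h8)
    have h8 : c * a * c⁻¹ ≠ z := by
      intro h9
      rw [mul_inv_eq_iff_eq_mul, ← hcz] at h9
      exact hne (mul_left_cancel h9)
    obtain ⟨M₀, N₀, e0⟩ := h.conj_inv ha haa ha1 hne
    obtain ⟨M, N', e1⟩ := h.conj_inv h5 h6 h7 h8
    have m1 : ∀ A B, φ₁ A * φ₂ B ∈ N := fun A B => mul_mem (phi_mem hN φ₁ A) (phi_mem hN φ₂ B)
    have m2 : (φ₁ M₀ * φ₂ N₀)⁻¹ * (φ₁ M * φ₂ N') * c ∈ D := by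
      rw [hD, Subgroup.mem_inf, Subgroup.mem_centralizer_singleton_iff,
        Subgroup.mem_centralizer_singleton_iff]
      constructor
      · have hz1 : ∀ A B, Commute (φ₁ A * φ₂ B) z := h.z_comm
        have hz2 : Commute c z := hcz
        exact (((hz1 M₀ N₀).inv_left.mul_left (hz1 M N')).mul_left hz2).eq
      · rw [← mul_inv_eq_iff_eq_mul]
        calc (φ₁ M₀ * φ₂ N₀)⁻¹ * (φ₁ M * φ₂ N') * c * a * ((φ₁ M₀ * φ₂ N₀)⁻¹ * (φ₁ M * φ₂ N') * c)⁻¹
            = (φ₁ M₀ * φ₂ N₀)⁻¹ * ((φ₁ M * φ₂ N') * (c * a * c⁻¹) * (φ₁ M * φ₂ N')⁻¹) *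
              (φ₁ M₀ * φ₂ N₀) := by group
          _ = (φ₁ M₀ * φ₂ N₀)⁻¹ * ((φ₁ M₀ * φ₂ N₀) * a * (φ₁ M₀ * φ₂ N₀)⁻¹) * (φ₁ M₀ * φ₂ N₀) := by
            rw [e1, e0]
          _ = a := by group
    have m3 : c = (φ₁ M * φ₂ N')⁻¹ * (φ₁ M₀ * φ₂ N₀) *
        ((φ₁ M₀ * φ₂ N₀)⁻¹ * (φ₁ M * φ₂ N') * c) := by group
    rw [m3]
    exact mul_mem (mul_mem (inv_mem (m1 _ _)) (m1 _ _)) (hDN' m2)
  -- `C` has odd index
  have h9 := Cfsg.Agent.LargeExtra.TwoCentral.odd_index hl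
  have h10 := Subgroup.index_dvd_of_le hCN
  rw [hN] at h10
  exact (Nat.not_even_iff_odd.2 h9) (even_iff_two_dvd.2 h10)

/-- no normal subgroup of odd order -/
theorem odd_normal {Q : Subgroup G} (hl : Large Q z) {g : G} (hg : g * z * g⁻¹ ∈ Q)
    (hne : g * z * g⁻¹ ≠ z) (N : Subgroup G) [hNn : N.Normal] (hN : Odd (Nat.card N)) : N = ⊥ := by
  have p := pair_of_conj hl hg hne
  have hcop : ∀ x ∈ N, x * x = 1 → x = 1 := by
    intro x hx hxx
    by_contra hx1
    have h1 : orderOf (⟨x, hx⟩ : N) = 2 :=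
      orderOf_eq_prime (by rw [pow_two]; exact Subtype.ext hxx) (fun h => hx1 (congrArg Subtype.val h))
    have h2 := orderOf_dvd_natCard (⟨x, hx⟩ : N)
    rw [h1] at h2
    exact (Nat.not_even_iff_odd.2 hN) (even_iff_two_dvd.2 h2)
  -- `C_N(z) = 1`
  have c0 : ∀ x ∈ N, x * z = z * x → x = 1 := by
    intro x hx hxz
    have h1 : x ∈ Q := by
      apply hl.self x hxz
      intro y hy
      -- `[x, y] ∈ N ∩ Q`
      have h2 : x * y * x⁻¹ * y⁻¹ ∈ N := by
        have : x * y * x⁻¹ * y⁻¹ = x * (y * x⁻¹ * y⁻¹) := by group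
        rw [this]
        exact mul_mem hx (hNn.conj_mem _ (inv_mem hx) y)
      have h3 : x * y * x⁻¹ * y⁻¹ ∈ Q := mul_mem (hl.conj_mem x hxz y hy) (inv_mem hy)
      have h4 : x * y * x⁻¹ * y⁻¹ = 1 := by
        have h6 := hl.comm_z _ h3
        rcases hl.sq _ h3 with h5 | h5
        · exact hcop _ h2 h5
        · exfalso
          have hzN : z ∈ N := by rw [← h5]; exact mul_mem h2 h2
          exact hl.z_ne (hcop z hzN hl.z_sq)
      have h7 : x * y = (x * y * x⁻¹ * y⁻¹) * (y * x) := by group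
      rw [h7, h4, one_mul]
    rcases hl.sq x h1 with h2 | h2
    · exact hcop x hx h2
    · exfalso
      have hzN : z ∈ N := by rw [← h2]; exact mul_mem hx hx
      exact hl.z_ne (hcop z hzN hl.z_sq)
  -- conjugates of `z` act without fixed points
  have c1 : ∀ k : G, ∀ x ∈ N, x * (k * z * k⁻¹) = (k * z * k⁻¹) * x → x = 1 := by
    intro k x hx hxk
    have h1 : k⁻¹ * x * k = 1 := by
      apply c0
      · have := hNn.conj_mem x hx k⁻¹
        rwa [inv_inv] at this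
      · calc k⁻¹ * x * k * z = k⁻¹ * (x * (k * z * k⁻¹)) * k := by group
          _ = k⁻¹ * ((k * z * k⁻¹) * x) * k := by rw [hxk]
          _ = z * (k⁻¹ * x * k) := by group
    calc x = k * (k⁻¹ * x * k) * k⁻¹ := by group
      _ = 1 := by rw [h1]; group
  -- so they invert `N`
  have c2 : ∀ k : G, ∀ x ∈ N, (k * z * k⁻¹) * x * (k * z * k⁻¹)⁻¹ = x⁻¹ := by
    intro k x hx
    set w := k * z * k⁻¹ with hw
    have hww : w * w = 1 := by
      calc w * w = k * (z * z) * k⁻¹ := by rw [hw]; group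
        _ = 1 := by rw [hl.z_sq]; group
    have hwi : w⁻¹ = w := inv_eq_of_mul_eq_one_left hww
    let f : N → N := fun y => y⁻¹ * ⟨w * y * w⁻¹, hNn.conj_mem y y.2 w⟩
    have hf : Function.Injective f := by
      intro y y' hyy
      have h1 : (y : G)⁻¹ * (w * y * w⁻¹) = (y' : G)⁻¹ * (w * y' * w⁻¹) := congrArg Subtype.val hyy
      have h2 : (y' : G) * (y : G)⁻¹ = 1 := by
        apply c1 k
        · exact mul_mem y'.2 (inv_mem y.2)
        · rw [← hw]
          have h3 : (y' : G) * (y : G)⁻¹ = w * y' * w⁻¹ * (w * y * w⁻¹)⁻¹ := by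
            rw [eq_mul_inv_iff_mul_eq]
            calc (y' : G) * (y : G)⁻¹ * (w * y * w⁻¹) = y' * ((y : G)⁻¹ * (w * y * w⁻¹)) := by group
              _ = y' * ((y' : G)⁻¹ * (w * y' * w⁻¹)) := by rw [h1]
              _ = w * y' * w⁻¹ := by group
          calc (y' : G) * (y : G)⁻¹ * w = (w * y' * w⁻¹ * (w * y * w⁻¹)⁻¹) * w := by rw [← h3]
            _ = w * (y' * (y : G)⁻¹) := by group
      exact Subtype.ext (mul_inv_eq_one.1 h2).symm
    obtain ⟨y, hy⟩ := Finite.surjective_of_injective hf ⟨x, hx⟩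
    have h1 : (y : G)⁻¹ * (w * y * w⁻¹) = x := congrArg Subtype.val hy
    rw [← h1]
    calc w * ((y : G)⁻¹ * (w * y * w⁻¹)) * w⁻¹ = w * (y : G)⁻¹ * w * y * (w * w)⁻¹ := by group
      _ = w * (y : G)⁻¹ * w⁻¹ * y := by rw [hww, hwi]; group
      _ = ((y : G)⁻¹ * (w * y * w⁻¹))⁻¹ := by group
  rw [Subgroup.eq_bot_iff_forall]
  intro x hx
  -- `a z` is a conjugate of `z`
  obtain ⟨k, k1, k2, k3⟩ := p.cycle
  have h1 : (g * z * g⁻¹) * z = (k * k) * z * (k * k)⁻¹ := by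
    calc (g * z * g⁻¹) * z = k * (g * z * g⁻¹) * k⁻¹ := k2.symm
      _ = k * (k * z * k⁻¹) * k⁻¹ := by rw [k1]
      _ = _ := by group
  have h2 := c2 g x hx
  have h3 := c2 1 x hx
  have h4 : (1 : G) * z * 1⁻¹ = z := by group
  rw [h4] at h3
  apply c1 (k * k) x hx
  rw [← h1]
  have h5 : (g * z * g⁻¹ * z) * x * (g * z * g⁻¹ * z)⁻¹ = x := by
    calc (g * z * g⁻¹ * z) * x * (g * z * g⁻¹ * z)⁻¹
        = (g * z * g⁻¹) * (z * x * z⁻¹) * (g * z * g⁻¹)⁻¹ := by group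
      _ = (g * z * g⁻¹) * x⁻¹ * (g * z * g⁻¹)⁻¹ := by rw [h3]
      _ = ((g * z * g⁻¹) * x * (g * z * g⁻¹)⁻¹)⁻¹ := by group
      _ = x := by rw [h2, inv_inv]
  rw [mul_inv_eq_iff_eq_mul] at h5
  exact h5.symm

end Cfsg.Agent.H870.U4Index
end

-- part: H870/U4Main
section
/-!
# The structure of `C_G(z)`, one class of involutions, simplicity (type `U₄(3)`)
-/

set_option autoImplicit false

namespace Cfsg.Agent.H870.U4Main

open Cfsg.Agent.H870.STwoThree Cfsg.Agent.Co2Type.Quad Cfsg.Agent.LargeExtra.W2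
  Cfsg.Agent.H870.U4Two Cfsg.Agent.LargeExtra.Base Cfsg.Agent.LargeExtra.W2.U43
  Cfsg.Agent.H870.U4Index

variable {G : Type*} [Group G] [Finite G] {z : G} {φ₁ φ₂ : S23 →* G}

/-- the coordinates of `U₄(3)` -/
theorem tw_of (h : Two z φ₁ φ₂) (hl : Large (QQ h) z)
    (hC : Nat.card (Subgroup.centralizer ({z} : Set G)) = 1152)
    (hO : ∀ N : Subgroup G, QQ h ≤ N → N ≤ Subgroup.centralizer ({z} : Set G) →
      (∀ c ∈ Subgroup.centralizer ({z} : Set G), ∀ n ∈ N, c * n * c⁻¹ ∈ N) → IsPGroup 2 N → N ≤ QQ h)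
    {g : G} (hg : g * z * g⁻¹ ∈ QQ h) (hne : g * z * g⁻¹ ≠ z)
    (h4 : Nat.card ↥(QQ h ⊓ (QQ h).map (MulAut.conj g).toMonoidHom) = 4) :
    ∃ i j k l x₁ x₂ y s, Tw (QQ h) z i j k l x₁ x₂ y s ∧ IsConj z s ∧ IsConj z (y * s) := by
  have hG : ∀ H : Subgroup G, H.index ≠ 2 := fun H => no_index_two h hl hC hg hne h4 H
  have hev : ∃ c ∈ Subgroup.centralizer ({z} : Set G), c ∉ QQ h ∧ c * c ∈ QQ h := by
    set C := Subgroup.centralizer ({z} : Set G) with hCdef
    have hQC : QQ h ≤ C := by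
      intro x hx
      rw [hCdef, Subgroup.mem_centralizer_singleton_iff]
      exact hl.comm_z x hx
    have hn : ((QQ h).subgroupOf C).Normal := by
      refine ⟨fun n hn c => ?_⟩
      exact hl.conj_mem c (Subgroup.mem_centralizer_singleton_iff.1 c.2) n hn
    have h1 : Nat.card ((QQ h).subgroupOf C) = 32 := by
      rw [Nat.card_congr (Subgroup.subgroupOfEquivOfLe hQC).toEquiv, card_QQ h]
    have h2 : Nat.card (C ⧸ (QQ h).subgroupOf C) = 36 := by
      have := Subgroup.card_eq_card_quotient_mul_card_subgroup ((QQ h).subgroupOf C)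
      rw [hC, h1] at this
      omega
    have : Fact (Nat.Prime 2) := ⟨Nat.prime_two⟩
    obtain ⟨q, hq⟩ := exists_prime_orderOf_dvd_card' (G := C ⧸ (QQ h).subgroupOf C) 2
      (by rw [h2]; norm_num)
    obtain ⟨c, rfl⟩ := QuotientGroup.mk_surjective q
    refine ⟨c, c.2, ?_, ?_⟩
    · intro hc
      have : (QuotientGroup.mk c : C ⧸ (QQ h).subgroupOf C) = 1 :=
        (QuotientGroup.eq_one_iff c).2 hc
      rw [this, orderOf_one] at hq
      exact absurd hq (by norm_num)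
    · have h3 := pow_orderOf_eq_one (QuotientGroup.mk c : C ⧸ (QQ h).subgroupOf C)
      rw [hq, pow_two, ← QuotientGroup.mk_mul, QuotientGroup.eq_one_iff] at h3
      exact h3
  rcases Cases.cases_plus hG (h.plus hl) hO hev with
      ⟨i, j, k, l, w, s, h1⟩ | ⟨i, j, k, l, v, y, h1⟩ | ⟨i, j, k, l, x₁, x₂, s, h1⟩ |
      ⟨i, j, k, l, x₁, x₂, y, h1⟩ | ⟨i, j, k, l, x₁, x₂, y, s, h1⟩ | ⟨i, j, k, l, x₁, x₂, f, h1, h2⟩
  · have := h1.card_cent; rw [hC] at this; exact absurd this (by norm_num)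
  · have := h1.card_cent; rw [hC] at this; exact absurd this (by norm_num)
  · have := h1.card_cent; rw [hC] at this; exact absurd this (by norm_num)
  · have := h1.card_cent; rw [hC] at this; exact absurd this (by norm_num)
  · obtain ⟨h2, h3, h4⟩ := Fusion.fusion h1 ⟨g, hg, hne⟩ hG
    exact ⟨i, j, k, l, x₁, x₂, y, s, h2, h3, h4⟩
  · exact (Kill94.case94_false h1 (pair_of_conj hl hg hne)).elim

/-- a Sylow subgroup inside `C_G(z)` -/
theorem exists_sylow {Q : Subgroup G} (hl : Large Q z) : ∃ T : Sylow 2 G, Q ≤ T ∧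
    (T : Subgroup G) ≤ Subgroup.centralizer ({z} : Set G) := by
  have : Fact (Nat.Prime 2) := ⟨Nat.prime_two⟩
  obtain ⟨T, hT⟩ := (isPGroup hl).exists_le_sylow
  exact ⟨T, hT, Cfsg.Agent.LargeExtra.TwoCentral.le_centralizer_of_two hl T.2 hT⟩

/-- all involutions are conjugate -/
theorem one_class (h : Two z φ₁ φ₂) (hl : Large (QQ h) z) {g : G} (hg : g * z * g⁻¹ ∈ QQ h)
    (hne : g * z * g⁻¹ ≠ z) {i j k l x₁ x₂ y s : G} (ht : Tw (QQ h) z i j k l x₁ x₂ y s)
    (hs : IsConj z s) (hys : IsConj z (y * s)) {u : G} (hu : u * u = 1) (hu1 : u ≠ 1) :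
    IsConj z u := by
  have : Fact (Nat.Prime 2) := ⟨Nat.prime_two⟩
  obtain ⟨T, hQT, hTC⟩ := exists_sylow hl
  -- `z ~ i k`
  have hik : IsConj z (i * k) := by
    have hi : i ∈ QQ h := by rw [ht.gen]; exact Subgroup.subset_closure (by simp)
    have hk : k ∈ QQ h := by rw [ht.gen]; exact Subgroup.subset_closure (by simp)
    have hikk : i * k * (i * k) = 1 := by
      calc i * k * (i * k) = i * (k * i) * k := by group
        _ = i * (i * k) * k := by rw [ht.ki]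
        _ = (i * i) * (k * k) := by group
        _ = 1 := by rw [ht.ii, ht.kk, hl.z_sq]
    have hik1 : i * k ≠ 1 := by
      intro h1
      have h2 : k = i⁻¹ := (inv_eq_of_mul_eq_one_right h1).symm
      have h3 := ht.kj
      rw [h2] at h3
      have h4 : j * i = i * j := by
        calc j * i = i * (i⁻¹ * j) * i := by group
          _ = i * (j * i⁻¹) * i := by rw [h3]
          _ = i * j := by group
      have h5 := ht.ji
      rw [h4] at h5
      exact hl.z_ne (mul_eq_left.1 h5.symm)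
    have hikz : i * k ≠ z := by
      intro h1
      have h2 : k = i⁻¹ * z := by rw [← h1]; group
      have h3 := ht.kj
      have hj : j ∈ QQ h := by rw [ht.gen]; exact Subgroup.subset_closure (by simp)
      have hjz := hl.comm_z j hj
      rw [h2] at h3
      have h4 : j * i = i * j := by
        have e1 : i⁻¹ * j * z = j * i⁻¹ * z := by
          calc i⁻¹ * j * z = i⁻¹ * (j * z) := by group
            _ = i⁻¹ * (z * j) := by rw [hjz]
            _ = i⁻¹ * z * j := by group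
            _ = j * (i⁻¹ * z) := h3
            _ = j * i⁻¹ * z := by group
        have e2 : i⁻¹ * j = j * i⁻¹ := mul_right_cancel e1
        calc j * i = i * (i⁻¹ * j) * i := by group
          _ = i * (j * i⁻¹) * i := by rw [e2]
          _ = i * j := by group
      have h5 := ht.ji
      rw [h4] at h5
      exact hl.z_ne (mul_eq_left.1 h5.symm)
    have p := pair_of_conj hl hg hne
    obtain ⟨M, N, h1⟩ := h.conj_inv (mul_mem hi hk) hikk hik1 hikz
    obtain ⟨M', N', h2⟩ := h.conj_inv hg p.la.z_sq p.la.z_ne hne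
    have c1 : IsConj (i * k) (φ₁ mI * φ₂ mI) := isConj_iff.2 ⟨_, h1⟩
    have c2 : IsConj (g * z * g⁻¹) (φ₁ mI * φ₂ mI) := isConj_iff.2 ⟨_, h2⟩
    have c3 : IsConj z (g * z * g⁻¹) := isConj_iff.2 ⟨_, rfl⟩
    exact c3.trans (c2.trans c1.symm)
  -- `u` may be taken in `C_G(z)`
  have h2 : IsPGroup 2 (Subgroup.zpowers u) := by
    apply IsPGroup.of_card (n := 1)
    rw [Nat.card_zpowers, pow_one]
    exact orderOf_eq_prime (by rw [pow_two]; exact hu) hu1
  obtain ⟨P, hP⟩ := h2.exists_le_sylow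
  obtain ⟨c, hc⟩ := MulAction.exists_smul_eq G P T
  have huP : u ∈ (P : Subgroup G) := hP (Subgroup.mem_zpowers u)
  have h3 : c * u * c⁻¹ ∈ (T : Subgroup G) := by
    rw [← hc]
    exact Subgroup.smul_mem_pointwise_smul u (MulAut.conj c) _ huP
  have h4 := Subgroup.mem_centralizer_singleton_iff.1 (hTC h3)
  have c0 : IsConj u (c * u * c⁻¹) := isConj_iff.2 ⟨c, rfl⟩
  obtain ⟨b, -, hb⟩ := InvClass.inv_class ht h4 (u := c * u * c⁻¹)
    (by
      calc c * u * c⁻¹ * (c * u * c⁻¹) = c * (u * u) * c⁻¹ := by group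
        _ = 1 := by rw [hu]; group)
    (by
      intro h5
      rw [mul_inv_eq_one] at h5
      exact hu1 (mul_eq_left.1 h5))
  have key : ∀ r : G, b * (c * u * c⁻¹) = r * b → IsConj z r → IsConj z u := by
    intro r h5 h6
    have h7 : IsConj (c * u * c⁻¹) r := isConj_iff.2 ⟨b, by rw [h5]; group⟩
    exact h6.trans (h7.symm.trans c0.symm)
  rcases hb with h5 | h5 | h5 | h5
  · exact key _ h5 (IsConj.refl z)
  · exact key _ h5 hik
  · exact key _ h5 hs
  · exact key _ h5 hys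

/-- `G` is simple -/
theorem simple (h : Two z φ₁ φ₂) (hl : Large (QQ h) z) {g : G} (hg : g * z * g⁻¹ ∈ QQ h)
    (hne : g * z * g⁻¹ ≠ z) {i j k l x₁ x₂ y s : G} (ht : Tw (QQ h) z i j k l x₁ x₂ y s)
    (hs : IsConj z s) (hys : IsConj z (y * s)) : IsSimpleGroup G := by
  have : Fact (Nat.Prime 2) := ⟨Nat.prime_two⟩
  have hnt : Nontrivial G := ⟨z, 1, hl.z_ne⟩
  refine ⟨fun N hN => ?_⟩
  by_cases hodd : Odd (Nat.card N)
  · exact Or.inl (odd_normal hl hg hne N hodd)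
  right
  rw [Nat.not_odd_iff_even, even_iff_two_dvd] at hodd
  obtain ⟨u, hu⟩ := exists_prime_orderOf_dvd_card' (G := N) 2 hodd
  have hu2 : (u : G) * u = 1 := by
    have := pow_orderOf_eq_one u
    rw [hu, pow_two] at this
    exact congrArg Subtype.val this
  have hu1 : (u : G) ≠ 1 := by
    intro h1
    have : u = 1 := Subtype.ext h1
    rw [this, orderOf_one] at hu
    exact absurd hu (by norm_num)
  -- `N` contains all involutions
  have mem_of : ∀ {a b : G}, IsConj a b → a ∈ N → b ∈ N := by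
    intro a b hab ha
    obtain ⟨c, rfl⟩ := isConj_iff.1 hab
    exact hN.conj_mem a ha c
  have hz : z ∈ N := mem_of (one_class h hl hg hne ht hs hys hu2 hu1).symm u.2
  have hsN : s ∈ N := mem_of hs hz
  have hysN : y * s ∈ N := mem_of hys hz
  have hyN : y ∈ N := by
    have : y = y * s * s⁻¹ := by group
    rw [this]
    exact mul_mem hysN (inv_mem hsN)
  have comm_mem : ∀ {a : G}, a ∈ N → ∀ b : G, a * b * a⁻¹ * b⁻¹ ∈ N := by
    intro a ha b
    have : a * b * a⁻¹ * b⁻¹ = a * (b * a⁻¹ * b⁻¹) := by group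
    rw [this]
    exact mul_mem ha (hN.conj_mem _ (inv_mem ha) b)
  have cube : ∀ {x : G}, x ^ 3 = 1 → x⁻¹ * x⁻¹ ∈ N → x ∈ N := by
    intro x hx hxx
    have : x = x⁻¹ * x⁻¹ := by
      calc x = x ^ 3 * x⁻¹ * x⁻¹ := by rw [pow_succ, pow_two]; group
        _ = _ := by rw [hx, one_mul]
    rw [this]
    exact hxx
  have hx₁ : x₁ ∈ N := by
    apply cube ht.x₁3
    have := comm_mem hyN x₁
    rwa [ht.y1] at this
  have hx₂ : x₂ ∈ N := by
    apply cube ht.x₂3
    have := comm_mem hyN x₂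
    rwa [ht.y2] at this
  have hi : i ∈ N := by
    have := comm_mem hx₁ j
    rw [ht.x₁_act.j] at this
    have e : i * j * j⁻¹ = i := by group
    rwa [e] at this
  have hj : j ∈ N := by
    have := comm_mem hx₁ i
    rw [ht.x₁_act.i] at this
    have e : j = j * i⁻¹ * i := by group
    rw [e]
    exact mul_mem this hi
  have hk : k ∈ N := by
    have := comm_mem hx₂ l
    rw [ht.x₂_act.l] at this
    have e : k * l * l⁻¹ = k := by group
    rwa [e] at this
  have hlN : l ∈ N := by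
    have := comm_mem hx₂ k
    rw [ht.x₂_act.k] at this
    have e : l = l * k⁻¹ * k := by group
    rw [e]
    exact mul_mem this hk
  have hCN : Subgroup.centralizer ({z} : Set G) ≤ N := by
    rw [ht.cent, Subgroup.closure_le]
    rintro _ (rfl | rfl | rfl | rfl | rfl | rfl | rfl | rfl) <;> assumption
  -- Frattini
  obtain ⟨T, hQT, hTC⟩ := exists_sylow hl
  have h1 := Sylow.normalizer_sup_eq_top' T (hTC.trans hCN)
  rw [eq_top_iff, ← h1, sup_le_iff]
  refine ⟨?_, le_rfl⟩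
  refine le_trans ?_ hCN
  intro c hc
  rw [Subgroup.mem_centralizer_singleton_iff]
  have hc' : ∀ t, t ∈ (T : Subgroup G) ↔ c * t * c⁻¹ ∈ (T : Subgroup G) :=
    Subgroup.mem_normalizer_iff.1 hc
  have h2 : ∀ q ∈ QQ h, (c * z * c⁻¹) * q = q * (c * z * c⁻¹) := by
    intro q hq
    have h3 : c⁻¹ * q * c ∈ (T : Subgroup G) := by
      rw [hc']
      have e : c * (c⁻¹ * q * c) * c⁻¹ = q := by group
      rw [e]
      exact hQT hq
    have h4 := Subgroup.mem_centralizer_singleton_iff.1 (hTC h3)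
    calc (c * z * c⁻¹) * q = c * (z * (c⁻¹ * q * c)) * c⁻¹ := by group
      _ = c * ((c⁻¹ * q * c) * z) * c⁻¹ := by rw [h4]
      _ = q * (c * z * c⁻¹) := by group
  rcases Cfsg.Agent.LargeExtra.TwoCentral.eq_of_central hl h2 with h3 | h3
  · exfalso
    rw [mul_inv_eq_one] at h3
    exact hl.z_ne (mul_eq_left.1 h3)
  · rwa [mul_inv_eq_iff_eq_mul] at h3

end Cfsg.Agent.H870.U4Main
end

-- part: H870/U4Setup
section
/-!
# From the hypotheses of the statements to `Two z φ₁ φ₂` (type `U₄(3)`)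
-/

set_option autoImplicit false

namespace Cfsg.Agent.H870.U4Setup

open Cfsg.Agent.H870.STwoThree Cfsg.Agent.Co2Type.Quad Cfsg.Agent.LargeExtra.W2
  Cfsg.Agent.H870.U4Two Cfsg.Agent.LargeExtra.Base Cfsg.Agent.LargeExtra.W2.U43
  Cfsg.Agent.H870.U4Index

variable {G : Type*} [Group G]

theorem comm_of {z a n : G} (hz : z * z = 1) (hz1 : z ≠ 1) (ha : a * z = z * a)
    (h3 : a ^ 3 = 1) (h : a * n * a⁻¹ * n⁻¹ = 1 ∨ a * n * a⁻¹ * n⁻¹ = z) : a * n = n * a := by
  rcases h with h | h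
  · calc a * n = (a * n * a⁻¹ * n⁻¹) * (n * a) := by group
      _ = n * a := by rw [h, one_mul]
  · exfalso
    apply hz1
    have h1 : a * n * a⁻¹ = z * n := by
      calc a * n * a⁻¹ = (a * n * a⁻¹ * n⁻¹) * n := by group
        _ = z * n := by rw [h]
    have h2 : a * a * n * (a * a)⁻¹ = n := by
      calc a * a * n * (a * a)⁻¹ = a * (a * n * a⁻¹) * a⁻¹ := by group
        _ = a * (z * n) * a⁻¹ := by rw [h1]
        _ = (a * z) * n * a⁻¹ := by group
        _ = (z * a) * n * a⁻¹ := by rw [ha]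
        _ = z * (a * n * a⁻¹) := by group
        _ = z * z * n := by rw [h1]; group
        _ = n := by rw [hz, one_mul]
    have h4 : a * a * a * n * (a * a * a)⁻¹ = z * n := by
      calc a * a * a * n * (a * a * a)⁻¹ = a * (a * a * n * (a * a)⁻¹) * a⁻¹ := by group
        _ = z * n := by rw [h2, h1]
    have h5 : a * a * a = 1 := by rw [← h3, pow_succ, pow_two]
    rw [h5] at h4
    have h6 : n = z * n := by rw [← h4]; group
    calc z = z * n * n⁻¹ := by group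
      _ = n * n⁻¹ := by rw [← h6]
      _ = 1 := mul_inv_cancel n

section

variable {z : G} {H₁ H₂ : Subgroup (Subgroup.centralizer ({z} : Set G))}

/-- a copy of SL(2,3) in `G` -/
def phi (H : Subgroup (Subgroup.centralizer ({z} : Set G)))
    (e : H ≃* Matrix.SpecialLinearGroup (Fin 2) (ZMod 3)) : S23 →* G :=
  (Subgroup.subtype (Subgroup.centralizer ({z} : Set G))).comp
    ((Subgroup.subtype H).comp e.symm.toMonoidHom)

theorem phi_inj (H : Subgroup (Subgroup.centralizer ({z} : Set G)))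
    (e : H ≃* Matrix.SpecialLinearGroup (Fin 2) (ZMod 3)) : Function.Injective (phi H e) := by
  intro M N h
  have h1 : ((e.symm M : H) : Subgroup.centralizer ({z} : Set G)) = (e.symm N : H) :=
    Subtype.ext h
  exact e.symm.injective (Subtype.ext h1)

theorem phi_apply (H : Subgroup (Subgroup.centralizer ({z} : Set G)))
    (e : H ≃* Matrix.SpecialLinearGroup (Fin 2) (ZMod 3)) (M : S23) :
    phi H e M = (((e.symm M : H) : Subgroup.centralizer ({z} : Set G)) : G) := rfl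

theorem phi_surj (H : Subgroup (Subgroup.centralizer ({z} : Set G)))
    (e : H ≃* Matrix.SpecialLinearGroup (Fin 2) (ZMod 3))
    {c : Subgroup.centralizer ({z} : Set G)} (hc : c ∈ H) : ∃ M, phi H e M = (c : G) :=
  ⟨e ⟨c, hc⟩, by rw [phi_apply, MulEquiv.symm_apply_apply]⟩

theorem phi_z (hz : orderOf z = 2) (H : Subgroup (Subgroup.centralizer ({z} : Set G)))
    (e : H ≃* Matrix.SpecialLinearGroup (Fin 2) (ZMod 3))
    {c : Subgroup.centralizer ({z} : Set G)} (hc : c ∈ H) (hcz : (c : G) = z) :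
    phi H e mZ = z := by
  obtain ⟨M, hM⟩ := phi_surj H e hc
  have hzz : z * z = 1 := by
    have := pow_orderOf_eq_one z
    rwa [hz, pow_two] at this
  have h1 : M * M = 1 := by
    apply phi_inj H e
    rw [map_mul, hM, hcz, hzz, map_one]
  rcases sq_one M h1 with rfl | rfl
  · exfalso
    rw [map_one, hcz] at hM
    rw [← hM, orderOf_one] at hz
    exact absurd hz (by norm_num)
  · rw [hM, hcz]

theorem two (hz : orderOf z = 2)
    (hn₁ : (H₁.subgroupOf (H₁ ⊔ H₂)).Normal) (hn₂ : (H₂.subgroupOf (H₁ ⊔ H₂)).Normal)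
    (e₁ : H₁ ≃* Matrix.SpecialLinearGroup (Fin 2) (ZMod 3))
    (e₂ : H₂ ≃* Matrix.SpecialLinearGroup (Fin 2) (ZMod 3))
    (hmeet : (H₁ ⊓ H₂).map (Subgroup.subtype (Subgroup.centralizer ({z} : Set G))) =
      Subgroup.zpowers z) : Two z (phi H₁ e₁) (phi H₂ e₂) := by
  have hzz : z * z = 1 := by
    have := pow_orderOf_eq_one z
    rwa [hz, pow_two] at this
  have hz1 : z ≠ 1 := by
    rintro rfl
    rw [orderOf_one] at hz
    exact absurd hz (by norm_num)
  have hzp : ∀ x ∈ Subgroup.zpowers z, x = 1 ∨ x = z := by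
    intro x hx
    obtain ⟨n, rfl⟩ := Subgroup.mem_zpowers_iff.1 hx
    rcases Int.even_or_odd' n with ⟨k, rfl | rfl⟩
    · left
      rw [zpow_mul, zpow_two, hzz, one_zpow]
    · right
      rw [zpow_add, zpow_mul, zpow_two, hzz, one_zpow, one_mul, zpow_one]
  have hzm : z ∈ (H₁ ⊓ H₂).map (Subgroup.subtype (Subgroup.centralizer ({z} : Set G))) := by
    rw [hmeet]; exact Subgroup.mem_zpowers z
  obtain ⟨c, ⟨hc1, hc2⟩, hcz⟩ := hzm
  have z₁ := phi_z hz H₁ e₁ hc1 hcz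
  have z₂ := phi_z hz H₂ e₂ hc2 hcz
  have inter : ∀ c : Subgroup.centralizer ({z} : Set G), c ∈ H₁ → c ∈ H₂ →
      (c : G) = 1 ∨ (c : G) = z := by
    intro c h1 h2
    apply hzp
    rw [← hmeet]
    exact ⟨c, ⟨h1, h2⟩, rfl⟩
  have hcomm0 : ∀ (A N : S23), A ^ 3 = 1 →
      phi H₁ e₁ A * phi H₂ e₂ N = phi H₂ e₂ N * phi H₁ e₁ A := by
    intro A N hA
    apply comm_of hzz hz1
    · exact Subgroup.mem_centralizer_singleton_iff.1
        (((e₁.symm A : H₁) : Subgroup.centralizer ({z} : Set G)).2)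
    · rw [← map_pow, hA, map_one]
    · have haH : ((e₁.symm A : H₁) : Subgroup.centralizer ({z} : Set G)) ∈ H₁ :=
        (e₁.symm A : H₁).2
      have hnH : ((e₂.symm N : H₂) : Subgroup.centralizer ({z} : Set G)) ∈ H₂ :=
        (e₂.symm N : H₂).2
      rw [phi_apply, phi_apply]
      generalize ((e₁.symm A : H₁) : Subgroup.centralizer ({z} : Set G)) = a at haH ⊢
      generalize ((e₂.symm N : H₂) : Subgroup.centralizer ({z} : Set G)) = n at hnH ⊢
      have haK : a ∈ H₁ ⊔ H₂ := Subgroup.mem_sup_left haH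
      have hnK : n ∈ H₁ ⊔ H₂ := Subgroup.mem_sup_right hnH
      have h1 : a * n * a⁻¹ ∈ H₂ := hn₂.conj_mem ⟨n, hnK⟩ hnH ⟨a, haK⟩
      have h2 : n * a⁻¹ * n⁻¹ ∈ H₁ := hn₁.conj_mem ⟨a⁻¹, inv_mem haK⟩ (inv_mem haH) ⟨n, hnK⟩
      have h3 : a * n * a⁻¹ * n⁻¹ ∈ H₂ := mul_mem h1 (inv_mem hnH)
      have h4 : a * n * a⁻¹ * n⁻¹ ∈ H₁ := by
        have e : a * n * a⁻¹ * n⁻¹ = a * (n * a⁻¹ * n⁻¹) := by group
        rw [e]
        exact mul_mem haH h2
      exact inter _ h4 h3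
  refine ⟨phi_inj _ _, phi_inj _ _, z₁, z₂, ?_, ?_⟩
  · intro M N
    rcases three_three M with rfl | ⟨A, B, hA, hB, rfl⟩
    · rw [z₁]
      exact (Subgroup.mem_centralizer_singleton_iff.1
        (((e₂.symm N : H₂) : Subgroup.centralizer ({z} : Set G)).2)).symm
    · rw [map_mul, mul_assoc, hcomm0 B N hB, ← mul_assoc, hcomm0 A N hA, mul_assoc]
  · intro M N h
    have h0 : ((e₁.symm M : H₁) : Subgroup.centralizer ({z} : Set G)) = (e₂.symm N : H₂) :=
      Subtype.ext h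
    have h1 : ((e₁.symm M : H₁) : Subgroup.centralizer ({z} : Set G)) ∈ H₂ := by
      rw [h0]; exact (e₂.symm N : H₂).2
    rcases inter _ (e₁.symm M : H₁).2 h1 with h2 | h2
    · left
      apply phi_inj H₁ e₁
      rw [phi_apply, h2, map_one]
    · right
      apply phi_inj H₁ e₁
      rw [phi_apply, h2, z₁]

/-- elements of `H₁ ⊔ H₂` -/
theorem mem_sup (e₁ : H₁ ≃* Matrix.SpecialLinearGroup (Fin 2) (ZMod 3))
    (e₂ : H₂ ≃* Matrix.SpecialLinearGroup (Fin 2) (ZMod 3))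
    (h : Two z (phi H₁ e₁) (phi H₂ e₂)) {c : Subgroup.centralizer ({z} : Set G)}
    (hc : c ∈ H₁ ⊔ H₂) : ∃ M N, (c : G) = phi H₁ e₁ M * phi H₂ e₂ N := by
  let T : Subgroup (Subgroup.centralizer ({z} : Set G)) :=
    { carrier := {c | ∃ M N, (c : G) = phi H₁ e₁ M * phi H₂ e₂ N}
      mul_mem' := by
        rintro a b ⟨M, N, h1⟩ ⟨M', N', h2⟩
        exact ⟨M * M', N * N', by rw [Subgroup.coe_mul, h1, h2, h.mul]⟩
      one_mem' := ⟨1, 1, by rw [map_one, map_one, mul_one]; rfl⟩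
      inv_mem' := by
        rintro a ⟨M, N, h1⟩
        exact ⟨M⁻¹, N⁻¹, by rw [Subgroup.coe_inv, h1, h.inv]⟩ }
  have h1 : H₁ ⊔ H₂ ≤ T := by
    rw [sup_le_iff]
    constructor
    · intro a ha
      obtain ⟨M, hM⟩ := phi_surj H₁ e₁ ha
      exact ⟨M, 1, by rw [hM, map_one, mul_one]⟩
    · intro a ha
      obtain ⟨M, hM⟩ := phi_surj H₂ e₂ ha
      exact ⟨1, M, by rw [hM, map_one, one_mul]⟩
  exact h1 hc

theorem sup_mem (e₁ : H₁ ≃* Matrix.SpecialLinearGroup (Fin 2) (ZMod 3))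
    (e₂ : H₂ ≃* Matrix.SpecialLinearGroup (Fin 2) (ZMod 3)) (M N : S23) :
    ∃ c : ↥(H₁ ⊔ H₂), ((c : Subgroup.centralizer ({z} : Set G)) : G) =
      phi H₁ e₁ M * phi H₂ e₂ N :=
  ⟨⟨(e₁.symm M : H₁) * (e₂.symm N : H₂), mul_mem (Subgroup.mem_sup_left (e₁.symm M : H₁).2)
    (Subgroup.mem_sup_right (e₂.symm N : H₂).2)⟩, rfl⟩

theorem pCore_map [Finite G] (e₁ : H₁ ≃* Matrix.SpecialLinearGroup (Fin 2) (ZMod 3))
    (e₂ : H₂ ≃* Matrix.SpecialLinearGroup (Fin 2) (ZMod 3))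
    (h : Two z (phi H₁ e₁) (phi H₂ e₂)) :
    (((Cfsg.pCore 2 ↥(H₁ ⊔ H₂)).map (Subgroup.subtype (H₁ ⊔ H₂))).map
      (Subgroup.subtype (Subgroup.centralizer ({z} : Set G)))) = QQ h := by
  have : Fact (Nat.Prime 2) := ⟨Nat.prime_two⟩
  have hle : ((QQ h).comap ((Subgroup.subtype (Subgroup.centralizer ({z} : Set G))).comp
      (Subgroup.subtype (H₁ ⊔ H₂)))) ≤ Cfsg.pCore 2 ↥(H₁ ⊔ H₂) := by
    apply le_sSup
    constructor
    · refine ⟨fun n hn k => ?_⟩
      obtain ⟨M, N, h1⟩ := mem_sup e₁ e₂ h k.2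
      obtain ⟨A, B, hA, hB, h2⟩ := hn
      refine ⟨M * A * M⁻¹, N * B * N⁻¹, ?_, ?_, ?_⟩
      · rw [conj_pow, hA]; group
      · rw [conj_pow, hB]; group
      · have h2' : ((n : Subgroup.centralizer ({z} : Set G)) : G) =
          phi H₁ e₁ A * phi H₂ e₂ B := h2
        show ((k : Subgroup.centralizer ({z} : Set G)) : G) *
          ((n : Subgroup.centralizer ({z} : Set G)) : G) *
          ((k : Subgroup.centralizer ({z} : Set G)) : G)⁻¹ = _
        rw [h1, h2', h.inv, h.mul, h.mul]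
    · intro x
      refine ⟨2, ?_⟩
      obtain ⟨A, B, hA, hB, h2⟩ := x.2
      have h2' : (((x : ↥(H₁ ⊔ H₂)) : Subgroup.centralizer ({z} : Set G)) : G) =
          phi H₁ e₁ A * phi H₂ e₂ B := h2
      apply Subtype.ext
      apply Subtype.ext
      apply Subtype.ext
      show (((x : ↥(H₁ ⊔ H₂)) : Subgroup.centralizer ({z} : Set G)) : G) ^ (2 ^ 2) = 1
      rw [h2', Commute.mul_pow (h.comm A B), ← map_pow, ← map_pow,
        show (2 ^ 2 : ℕ) = 4 from rfl, hA, hB, map_one, map_one, mul_one]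
  apply le_antisymm
  · rintro _ ⟨_, ⟨x, hx, rfl⟩, rfl⟩
    obtain ⟨M, N, h1⟩ := mem_sup e₁ e₂ h x.2
    obtain ⟨B, hB, hB'⟩ := four_three M
    obtain ⟨D, hD, hD'⟩ := four_three N
    obtain ⟨y, hy⟩ := sup_mem (z := z) e₁ e₂ (M * B) (N * D)
    have hyQ : y ∈ Cfsg.pCore 2 ↥(H₁ ⊔ H₂) := hle ⟨_, _, hB', hD', hy⟩
    have hxy : x⁻¹ * y ∈ Cfsg.pCore 2 ↥(H₁ ⊔ H₂) := mul_mem (inv_mem hx) hyQ
    have hval : (((x⁻¹ * y : ↥(H₁ ⊔ H₂)) : Subgroup.centralizer ({z} : Set G)) : G) =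
        phi H₁ e₁ B * phi H₂ e₂ D := by
      show ((x : Subgroup.centralizer ({z} : Set G)) : G)⁻¹ *
        ((y : Subgroup.centralizer ({z} : Set G)) : G) = _
      rw [hy, h1, h.inv, h.mul, inv_mul_cancel_left, inv_mul_cancel_left]
    have hcube : (x⁻¹ * y) ^ 3 = 1 := by
      apply Subtype.ext
      apply Subtype.ext
      show (((x⁻¹ * y : ↥(H₁ ⊔ H₂)) : Subgroup.centralizer ({z} : Set G)) : G) ^ 3 = 1
      rw [hval, Commute.mul_pow (h.comm B D), ← map_pow, ← map_pow, hB, hD, map_one, map_one,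
        mul_one]
    have h2 : x⁻¹ * y = 1 := by
      have h3 := Cfsg.Agent.OddOrderLocal.PLengthOne.isPGroup_pCore (G := ↥(H₁ ⊔ H₂)) 2
      obtain ⟨k, hk⟩ := h3 ⟨x⁻¹ * y, hxy⟩
      have hk' : (x⁻¹ * y) ^ 2 ^ k = 1 := congrArg Subtype.val hk
      have d1 := orderOf_dvd_of_pow_eq_one hk'
      have d2 := orderOf_dvd_of_pow_eq_one hcube
      have hcop : Nat.Coprime (2 ^ k) 3 := Nat.Coprime.pow_left k (by norm_num)
      have d3 := Nat.eq_one_of_dvd_coprimes hcop d1 d2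
      exact orderOf_eq_one_iff.1 d3
    have h3 : x = y := inv_mul_eq_one.1 h2
    show ((x : Subgroup.centralizer ({z} : Set G)) : G) ∈ QQ h
    rw [h3, hy]
    exact ⟨_, _, hB', hD', rfl⟩
  · rintro _ ⟨M, N, hM, hN, rfl⟩
    obtain ⟨y, hy⟩ := sup_mem (z := z) e₁ e₂ M N
    have hyQ : y ∈ Cfsg.pCore 2 ↥(H₁ ⊔ H₂) := hle ⟨_, _, hM, hN, hy⟩
    exact ⟨_, ⟨y, hyQ, rfl⟩, hy⟩

end

/-- The hypotheses of the statements give coordinates. -/
theorem main [Finite G] (z : G) (hz : orderOf z = 2)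
    (H₁ H₂ : Subgroup (Subgroup.centralizer ({z} : Set G)))
    (hn₁ : (H₁.subgroupOf (H₁ ⊔ H₂)).Normal) (hn₂ : (H₂.subgroupOf (H₁ ⊔ H₂)).Normal)
    (e₁ : H₁ ≃* Matrix.SpecialLinearGroup (Fin 2) (ZMod 3))
    (e₂ : H₂ ≃* Matrix.SpecialLinearGroup (Fin 2) (ZMod 3))
    (hmeet : (H₁ ⊓ H₂).map (Subgroup.subtype (Subgroup.centralizer ({z} : Set G))) =
      Subgroup.zpowers z)
    (Q : Subgroup (Subgroup.centralizer ({z} : Set G))) [Q.Normal]
    (hQ : Q = (Cfsg.pCore 2 ↥(H₁ ⊔ H₂)).map (Subgroup.subtype (H₁ ⊔ H₂)))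
    (hF : Cfsg.generalizedFittingSubgroup (Subgroup.centralizer ({z} : Set G)) = Q)
    (hnwc : ∃ g : G, (∃ hq : g * z * g⁻¹ ∈ Subgroup.centralizer ({z} : Set G),
      (⟨g * z * g⁻¹, hq⟩ : Subgroup.centralizer ({z} : Set G)) ∈ Q) ∧ g * z * g⁻¹ ≠ z)
    (hH : Nat.card ↥(Subgroup.centralizer ({z} : Set G)) = 2 ^ 7 * 3 ^ 2)
    (hQQg : ∀ g : G, g * z * g⁻¹ ∈ Q.map (Subgroup.subtype (Subgroup.centralizer ({z} : Set G))) →
      g * z * g⁻¹ ≠ z → Nat.card ↥((Q.map (Subgroup.subtype (Subgroup.centralizer ({z} : Set G)))) ⊓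
      (Q.map (Subgroup.subtype (Subgroup.centralizer ({z} : Set G)))).map
        (MulAut.conj g).toMonoidHom) = 4) :
    ∃ h : Two z (phi H₁ e₁) (phi H₂ e₂), Large (QQ h) z ∧ ∃ g : G, g * z * g⁻¹ ∈ QQ h ∧
      g * z * g⁻¹ ≠ z ∧ ∃ i j k l x₁ x₂ y s, Tw (QQ h) z i j k l x₁ x₂ y s ∧ IsConj z s ∧
      IsConj z (y * s) := by
  have h := two hz hn₁ hn₂ e₁ e₂ hmeet
  have hQQ : Q.map (Subgroup.subtype (Subgroup.centralizer ({z} : Set G))) = QQ h := by
    rw [hQ]
    exact pCore_map e₁ e₂ h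
  have hmem : ∀ c : Subgroup.centralizer ({z} : Set G), c ∈ Q ↔ (c : G) ∈ QQ h := by
    intro c
    rw [← hQQ]
    constructor
    · intro hc
      exact ⟨c, hc, rfl⟩
    · rintro ⟨d, hd, hdc⟩
      have : d = c := Subtype.ext hdc
      rwa [← this]
  have hl : Large (QQ h) z := by
    apply h.large
    · intro g hg x hx
      rw [← hQQ] at hx
      obtain ⟨c, hc, rfl⟩ := hx
      have hg' : g ∈ Subgroup.centralizer ({z} : Set G) :=
        Subgroup.mem_centralizer_singleton_iff.2 hg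
      have h1 : (⟨g, hg'⟩ : Subgroup.centralizer ({z} : Set G)) * c * ⟨g, hg'⟩⁻¹ ∈ Q :=
        Subgroup.Normal.conj_mem inferInstance c hc _
      exact (hmem _).1 h1
    · intro g hg hx
      have hg' : g ∈ Subgroup.centralizer ({z} : Set G) :=
        Subgroup.mem_centralizer_singleton_iff.2 hg
      have h1 : (⟨g, hg'⟩ : Subgroup.centralizer ({z} : Set G)) ∈
          Subgroup.centralizer (Cfsg.generalizedFittingSubgroup
            (Subgroup.centralizer ({z} : Set G)) :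
            Set (Subgroup.centralizer ({z} : Set G))) := by
        rw [hF, Subgroup.mem_centralizer_iff]
        intro c hc
        apply Subtype.ext
        exact (hx c ((hmem c).1 hc)).symm
      have h2 := Cfsg.Agent.S1313.centralizer_le _ h1
      rw [hF] at h2
      exact (hmem _).1 h2
  have hC : Nat.card (Subgroup.centralizer ({z} : Set G)) = 1152 := by
    rw [hH]; norm_num
  have hO : ∀ N : Subgroup G, QQ h ≤ N → N ≤ Subgroup.centralizer ({z} : Set G) →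
      (∀ c ∈ Subgroup.centralizer ({z} : Set G), ∀ n ∈ N, c * n * c⁻¹ ∈ N) → IsPGroup 2 N →
      N ≤ QQ h := by
    intro N _ hN hnorm h2
    have h3 : (N.subgroupOf (Subgroup.centralizer ({z} : Set G))).Normal :=
      ⟨fun n hn c => hnorm c c.2 n hn⟩
    have h4 : IsPGroup 2 (N.subgroupOf (Subgroup.centralizer ({z} : Set G))) :=
      h2.of_equiv (Subgroup.subgroupOfEquivOfLe hN).symm
    have h5 := Cfsg.Agent.LargeExtra.TwoCentral.le_of_normal_two h3 h4
    rw [hF] at h5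
    intro n hn
    exact (hmem ⟨n, hN hn⟩).1 (h5 hn)
  obtain ⟨g, ⟨hq, hgQ⟩, hne⟩ := hnwc
  have hg : g * z * g⁻¹ ∈ QQ h := (hmem _).1 hgQ
  have h4 := hQQg g (by rw [hQQ]; exact hg) hne
  rw [hQQ] at h4
  exact ⟨h, hl, g, hg, hne, U4Main.tw_of h hl hC hO hg hne h4⟩

end Cfsg.Agent.H870.U4Setup
end
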